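import Cfsg.Agent.Lib.LMS.NFa
import Cfsg.Agent.Lib.LMS.NFb
import Cfsg.Agent.Lib.G2S.UB
import Cfsg.Agent.Lib.Unitary.Basic
import Cfsg.Agent.S0278
import Cfsg.Agent.S0245
import Cfsg.Agent.S2904

/-! Standard subgroups of type `L_m(2^n)`, package ZS: fixed elements of large prime order. -/

set_option autoImplicit false
set_option linter.unusedSectionVars false

namespace LMS

open Subgroup H69 Cfsg Matrix U4S
open scoped MatrixGroups commutatorElement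

universe u
variable {G : Type*} [Group G] [Finite G] {F : Type u} [Field F] [CharP F 2] [Fintype F] {n : ℕ} [Ok n F]
  {ι ψ χ : XX n F →* G} {t : G} {E : Subgroup G}

local notation "X" => XX n F
local notation "I" => Fin (n + 3)
local notation "Mx" => Matrix (Fin (n + 3)) (Fin (n + 3)) F

namespace ZS

theorem card_pow : ∃ f, 0 < f ∧ Nat.card F = 2 ^ f := by
  obtain ⟨f, -, h⟩ := FiniteField.card F 2
  exact ⟨f, f.2, by rw [Nat.card_eq_fintype_card, h]⟩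

theorem zsig {f N : ℕ} (hq : Nat.card F = 2 ^ f) (hN : f * (n + 2) ≤ N) (h1 : 1 < N) (h6 : N ≠ 6) :
    ∃ r, Pr n F r ∧ r ∣ 2 ^ N - 1 ∧ ∀ d, 0 < d → d < N → ¬ r ∣ 2 ^ d - 1 := by
  obtain ⟨r, hr, hd, hp⟩ := Cfsg.Agent.S2904.result 2 N one_lt_two h1 (fun h => h6 h.2) (by
    rintro ⟨-, m, hm⟩
    rcases m with _ | m
    · omega
    · rw [pow_succ] at hm; omega)
  refine ⟨r, ⟨hr, ?_, fun d h0 hlt => hp d h0 ?_⟩, hd, hp⟩
  · rintro rfl
    obtain ⟨N, rfl⟩ : ∃ M, N = M + 1 := ⟨N - 1, by omega⟩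
    have := Nat.two_pow_pos N
    rw [pow_succ] at hd; omega
  · rw [hq, ← pow_mul] at hlt
    exact lt_of_lt_of_le ((Nat.pow_lt_pow_iff_right one_lt_two).1 hlt) hN

theorem zs_cj {α β : X →* X} (h : Cj α β) (k : Zs β) : Zs α := by
  obtain ⟨C, hC⟩ := h
  obtain ⟨ρ, r, h1, h2, h3⟩ := k
  exact ⟨gc C ρ, r, by rw [hC, h1], by rw [MulEquiv.orderOf_eq, h2], h3⟩

theorem sq_sub (a : ℕ) : 2 ^ (2 * a) - 1 = (2 ^ a + 1) * (2 ^ a - 1) := by
  rw [← Nat.sq_sub_sq, ← pow_mul, mul_comm a, one_pow]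

theorem inv_val {x : X} {A : Mx} (h : A * x.1 = 1) : (x⁻¹).1 = A := by
  have e : x.1 * (x⁻¹).1 = 1 := by
    rw [← Matrix.SpecialLinearGroup.coe_mul, mul_inv_cancel, Matrix.SpecialLinearGroup.coe_one]
  rw [← Matrix.one_mul (x⁻¹).1, ← h, Matrix.mul_assoc, e, Matrix.mul_one]

/-- a block embedding -/
def emb {κ : Type*} [Fintype κ] [DecidableEq κ] (e : κ ⊕ Unit ≃ I) : Matrix κ κ F →* Mx where
  toFun A := reindex e e (fromBlocks A 0 0 1)
  map_one' := by rw [fromBlocks_one, reindex_apply, submatrix_one_equiv]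
  map_mul' A B := by
    simp only [reindex_apply, submatrix_mul_equiv, fromBlocks_multiply]
    simp

theorem emb_det {κ : Type*} [Fintype κ] [DecidableEq κ] (e : κ ⊕ Unit ≃ I) (A : Matrix κ κ F) :
    (emb e A).det = A.det := by
  change (reindex e e (fromBlocks A 0 0 1)).det = _
  rw [det_reindex_self, det_fromBlocks_zero₂₁, det_one, mul_one]

theorem emb_tr {κ : Type*} [Fintype κ] [DecidableEq κ] (e : κ ⊕ Unit ≃ I) (A : Matrix κ κ F) :
    (emb e A)ᵀ = emb e Aᵀ := by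
  change (reindex e e (fromBlocks A 0 0 1))ᵀ = reindex e e (fromBlocks Aᵀ 0 0 1)
  rw [transpose_reindex, fromBlocks_transpose, transpose_zero, transpose_zero, transpose_one]

theorem emb_inj {κ : Type*} [Fintype κ] [DecidableEq κ] (e : κ ⊕ Unit ≃ I) :
    Function.Injective (emb (F := F) e) := fun A B h => by
  have h' : fromBlocks A 0 0 (1 : Matrix Unit Unit F) = fromBlocks B 0 0 1 := (reindex e e).injective h
  exact (fromBlocks_inj.1 h').1

theorem auto_ZS : True := by have := @emb.eq_1.{0, 0}; trivial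

end ZS
open ZS

theorem zsB {g : GX n F} {φ : RingAut F} (o : Ou g φ true) (h : φ ≠ 1) (k : ¬ (n ≤ 1 ∧ Nat.card F = 4)) :
    Zs (au g φ true) := by
  refine zs_cj (nfB0 o h) ?_
  obtain ⟨f, f0, hf⟩ := card_pow (F := F)
  obtain ⟨c, hc⟩ := H89.G2S.exists_free φ o.sq h
  have hq := H89.G2S.card_fix φ o.sq hc
  generalize Nat.card {a | φ a = a} = q at hq
  obtain ⟨e, -, rfl⟩ : ∃ e ≤ f, q = 2 ^ e :=
    (Nat.dvd_prime_pow Nat.prime_two).1 (by rw [← hf, ← hq]; exact dvd_pow_self q two_ne_zero)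
  have fe : f = 2 * e := by
    rw [hf, ← pow_mul] at hq
    have := Nat.pow_right_injective le_rfl hq
    omega
  subst fe
  have hF : Fintype.card F = (2 ^ e) ^ 2 := by rw [hq, Nat.card_eq_fintype_card]
  haveI : H11.U.IsSq F (2 ^ e) := ⟨hF⟩
  let σ : RingAut F := RingEquiv.ofBijective (H11.U.cj (2 ^ e))
    (Finite.injective_iff_bijective.1 (H11.U.cj (2 ^ e) : F →+* F).injective)
  have hσ : φ = σ := aut_inv ⟨h, o.sq⟩ ⟨fun e1 => H11.U.cj_ne_id (F := F) (q := 2 ^ e)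
    (RingHom.ext fun a => DFunLike.congr_fun e1 a), fun a => H11.U.cj_cj a⟩
  obtain ⟨j, j1, j2, j3⟩ : ∃ j, n + 1 ≤ j ∧ j < n + 3 ∧ Even j := by
    rcases Nat.even_or_odd n with p | p
    · exact ⟨n + 2, by omega, by omega, p.add even_two⟩
    · exact ⟨n + 1, le_rfl, by omega, p.add_one⟩
  have j4 : 2 ≤ j := by obtain ⟨i, rfl⟩ := j3; omega
  have e0 : 0 < e := by omega
  obtain ⟨r, hr, hd, hp⟩ := zsig (n := n) (N := 2 * (e * (j + 1))) hf (by nlinarith) (by nlinarith) (fun h6 => by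
    have a1 : e * (j + 1) = 3 := by omega
    have a2 : e = 1 := by nlinarith
    subst a2
    exact k ⟨by omega, hf⟩)
  have hr1 : r ∣ (2 ^ e) ^ (j + 1) + 1 := by
    rw [sq_sub] at hd
    rw [← pow_mul]
    exact (hr.1.dvd_mul.1 hd).resolve_right (hp _ (by positivity) (by nlinarith))
  have hr2 : ¬ r ∣ 2 ^ e + 1 := fun h2 =>
    hp (2 * e) f0 (by nlinarith) (by rw [sq_sub]; exact h2.mul_right _)
  have hr3 : r ∣ Nat.card (SU (n + 3) F (2 ^ e)) := by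
    refine (hr.1.dvd_mul.1 ?_).resolve_left hr2
    rw [Cfsg.Agent.S0278.result hF (n + 3) (by omega)]
    refine Dvd.dvd.mul_left (hr1.trans ?_) _
    have := Finset.dvd_prod_of_mem
      (fun i => if Even i then (2 ^ e) ^ (i + 1) + 1 else (2 ^ e) ^ (i + 1) - 1) (Finset.mem_range.2 j2)
    rwa [if_pos j3] at this
  haveI := Fact.mk hr.1
  obtain ⟨x, hx⟩ := exists_prime_orderOf_dvd_card' r hr3
  refine ⟨x.1, r, Subtype.ext ?_, by rw [orderOf_coe, hx], hr⟩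
  have u1 : x.1.1ᵀ * x.1.1.map φ = 1 := by
    rw [hσ]; exact H11.U.isIso_iff.1 (H11.U.mem_SU.1 x.2)
  have u2 : (x.1.1.map φ)ᵀ * x.1.1 = 1 := by
    have := congrArg transpose u1
    rwa [transpose_mul, transpose_transpose, transpose_one] at this
  change ((x.1⁻¹).1ᵀ).map φ = x.1.1
  rw [inv_val u2, transpose_transpose]
  exact Matrix.ext fun i j => o.sq _

theorem zsC {g : GX n F} (o : Ou g 1 true) (h : Even n) (k : Nat.card F ^ (n + 2) ≠ 64) : Zs (au g 1 true) := by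
  obtain ⟨f, f0, hf⟩ := card_pow (F := F)
  obtain ⟨l, hl⟩ := h
  obtain ⟨r, hr, hd, -⟩ := zsig (n := n) (N := f * (n + 2)) hf le_rfl (by nlinarith) (fun h6 =>
    k (by rw [hf, ← pow_mul, h6]; norm_num))
  have hr3 : r ∣ Nat.card (Matrix.symplecticGroup (Fin (l + 1)) F) := by
    rw [Cfsg.Agent.S0245.result (q := 2 ^ f) (by rw [← hf, Nat.card_eq_fintype_card]) (l + 1)]
    refine Dvd.dvd.mul_left (hd.trans ?_) _
    have := Finset.dvd_prod_of_mem (fun i => (2 ^ f) ^ (2 * (i + 1)) - 1) (Finset.self_mem_range_succ l)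
    rwa [← pow_mul, show 2 * (l + 1) = n + 2 by omega] at this
  haveI := Fact.mk hr.1
  obtain ⟨A, hA⟩ := exists_prime_orderOf_dvd_card' r hr3
  let e : (Fin (l + 1) ⊕ Fin (l + 1)) ⊕ Unit ≃ I := Fintype.equivOfCardEq (by simp; omega)
  have hJ : IsUnit (emb e (Matrix.J (Fin (l + 1)) F)) :=
    ((Matrix.isUnit_iff_isUnit_det _).2 (Matrix.isUnit_det_J _ _)).map (emb e)
  have hJs : hJ.unit.1ᵀ = hJ.unit.1 := by
    rw [IsUnit.unit_spec, emb_tr, Matrix.J_transpose]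
    exact congrArg _ (Matrix.ext fun i j => CharTwo.neg_eq _)
  have od : Odd (n + 3) := ⟨l + 1, by omega⟩
  obtain ⟨D, hD⟩ := sym_one hJ.unit hJs (sym_odd od _ hJs)
  obtain ⟨C, hC⟩ := sym_one g (lg_sym o) (sym_odd od _ (lg_sym o))
  rw [IsUnit.unit_spec] at hD
  have a1 : A.1 * Matrix.J (Fin (l + 1)) F * A.1ᵀ = Matrix.J (Fin (l + 1)) F := SymplecticGroup.mem_iff.1 A.2
  have a2 : A.1.det = 1 := by
    have := congrArg det a1
    rw [det_mul, det_mul, det_transpose, mul_right_comm] at this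
    have b := (Matrix.isUnit_det_J (Fin (l + 1)) F).mul_right_cancel (this.trans (one_mul _).symm)
    rcases mul_self_eq_one_iff.1 b with b | b
    · exact b
    · rw [b, CharTwo.neg_eq]
  let y : X := ⟨emb e A.1, by rw [emb_det, a2]⟩
  have y1 : orderOf y = r := by
    rw [← hA, ← orderOf_submonoid A, ← orderOf_injective (emb e) (emb_inj e) A.1]
    exact (orderOf_injective (Matrix.SpecialLinearGroup.coeMonoidHom) Subtype.val_injective y).symm
  have y2 : y.1 * (D.1 * D.1ᵀ) * y.1ᵀ = D.1 * D.1ᵀ := by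
    rw [← hD]
    change emb e A.1 * _ * (emb e A.1)ᵀ = _
    rw [emb_tr, ← map_mul, ← map_mul, a1]
  refine ⟨gc (C * D⁻¹) y, r, ?_, by rw [MulEquiv.orderOf_eq, y1], hr⟩
  generalize hx : gc (C * D⁻¹) y = x
  have x1 : x.1 * g.1 * x.1ᵀ = g.1 := by
    have c1 : (C⁻¹).1 * C.1 = 1 := C.inv_mul
    have c2 : C.1ᵀ * (C⁻¹).1ᵀ = 1 := by rw [← transpose_mul, c1, transpose_one]
    have d1 : (D⁻¹).1 * D.1 = 1 := D.inv_mul
    have d2 : D.1ᵀ * (D⁻¹).1ᵀ = 1 := by rw [← transpose_mul, d1, transpose_one]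
    rw [← hx, gc_val, hC, _root_.mul_inv_rev, inv_inv, Units.val_mul, Units.val_mul]
    simp only [transpose_mul]
    calc _ = C.1 * (D⁻¹).1 * (y.1 * (D.1 * (((C⁻¹).1 * C.1) * (C.1ᵀ * (C⁻¹).1ᵀ)) * D.1ᵀ) * y.1ᵀ) *
          (D⁻¹).1ᵀ * C.1ᵀ := by simp only [Matrix.mul_assoc]
      _ = C.1 * ((D⁻¹).1 * D.1) * (D.1ᵀ * (D⁻¹).1ᵀ) * C.1ᵀ := by
          rw [c1, c2, Matrix.mul_one, Matrix.mul_one, y2]; simp only [Matrix.mul_assoc]
      _ = _ := by rw [d1, d2, Matrix.mul_one, Matrix.mul_one]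
  refine Subtype.ext ?_
  change g.1 * ((x⁻¹).1ᵀ).map (1 : RingAut F) * (g⁻¹).1 = x.1
  have x2 : x.1ᵀ * (x⁻¹).1ᵀ = 1 := by
    rw [← transpose_mul, ← Matrix.SpecialLinearGroup.coe_mul, inv_mul_cancel,
      Matrix.SpecialLinearGroup.coe_one, transpose_one]
  have x3 : ((x⁻¹).1ᵀ).map (1 : RingAut F) = (x⁻¹).1ᵀ := rfl
  have g1 : g.1 * (g⁻¹).1 = 1 := g.mul_inv
  rw [x3]
  calc _ = x.1 * g.1 * x.1ᵀ * (x⁻¹).1ᵀ * (g⁻¹).1 := by rw [x1]
    _ = x.1 * (g.1 * (x.1ᵀ * (x⁻¹).1ᵀ) * (g⁻¹).1) := by simp only [Matrix.mul_assoc]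
    _ = _ := by rw [x2, Matrix.mul_one, g1, Matrix.mul_one]

end LMS
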